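import Cfsg.Agent.H28.RG.Form
import Cfsg.Agent.H169.RG.Toral
import Cfsg.Agent.H448.TorB.Card
import Cfsg.Agent.H461.E2.Cent

/-!
# S3509, F5: the order of the centraliser of a torus element in `Y^α`, Bruhat count (helper550)

`α` a frame automorphism over `θ` of `Y = D.group k`, `t ∈ TT`, `α t = t`, `θ` preserves the positive roots of `Sx t`:
`|C_{Y^α}(t)| ≤ ∑_{w ∈ S} |T^α| q^(N + l_t(w))`, `S` any finite set containing the `w` which fix `t` and commute with `θ`,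
`N` the number of positive roots of `Sx t`, `l_t(w)` the number of those made negative by `w`.
-/

set_option autoImplicit false
set_option linter.unusedSectionVars false

namespace Cfsg.Agent.H550.RG

open CoxeterSystem Cfsg.Agent.ChevalleyStructure.CoxeterGeom Cfsg.Agent.Tits.Roots Cfsg.Agent.Tits.Core
  Cfsg.Agent.Nodes.Reps Cfsg.Agent.Nodes.BNOf Cfsg.Agent.Nodes.StabComb Cfsg.Agent.Nodes.Bruhat
  Cfsg.Agent.Nodes.OppDec Cfsg.Agent.Nodes.NormalForm Cfsg.Agent.KFacts.RgdField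
  Cfsg.Agent.BpExc.TorCent Cfsg.Agent.BpExc.Tow Cfsg.Agent.BpExc.Fr Cfsg.Agent.BpExc.Pair
  Cfsg.Agent.H461.E2.Sup Cfsg.Agent.H28.RG
open Cfsg (fixedSubgroup)

section Abs

variable {I W Y : Type*} [Fintype I] [DecidableEq I] [Group W] [Finite W] [Group Y] {M : CoxeterMatrix I}
  {cs : CoxeterSystem M W} {A : I → I → ℤ} {h : IsCartan M A} {p : ℕ}
  {J : Type*} [Preorder J] {T : J → Subgroup Y} {n : I → Y} {X : J → (I → ℤ) → Subgroup Y}
  {F : Type*} [Field F] {xx : (I → ℤ) → F → Y} {χ : (I → ℤ) → Y → F}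

/-- the positive roots of `Sx t` made negative by `w` -/
def NSt (cs : CoxeterSystem M W) (h : IsCartan M A) (χ : (I → ℤ) → Y → F) (t : Y) (w : W) : Set (I → ℤ) :=
  {a | a ∈ Sx cs h χ t ∧ 0 ≤ a ∧ rep cs h w a ≤ 0}

/-- the positive roots of `Sx t` kept positive by `w` -/
def PSt (cs : CoxeterSystem M W) (h : IsCartan M A) (χ : (I → ℤ) → Y → F) (t : Y) (w : W) : Set (I → ℤ) :=
  {a | a ∈ Sx cs h χ t ∧ 0 ≤ a ∧ 0 ≤ rep cs h w a}

theorem ncard_add (t : Y) (w : W) :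
    (PSt cs h χ t w).ncard + (NSt cs h χ t w).ncard = (SP cs h χ t).ncard := by
  have hf : {a | IsRoot cs h a}.Finite := RGD.finite_roots (cs := cs) (h := h)
  have h1 : (PSt cs h χ t w).Finite := hf.subset fun a ha => ha.1.1
  have h2 : (NSt cs h χ t w).Finite := hf.subset fun a ha => ha.1.1
  rw [← Set.ncard_union_eq ?_ h1 h2]
  · congr 1
    ext a
    constructor
    · rintro (ha | ha)
      · exact ⟨ha.1, ha.2.1⟩
      · exact ⟨ha.1, ha.2.1⟩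
    · rintro ⟨ha, h0⟩
      rcases (ha.1.act w).pos_or_neg with h3 | h3
      · exact Or.inl ⟨ha, h0, h3⟩
      · exact Or.inr ⟨ha, h0, h3⟩
  · rw [Set.disjoint_left]
    rintro a ⟨ha, -, h3⟩ ⟨-, -, h4⟩
    exact (ha.1.act w).not_pos_neg h3 h4

variable (H : Tow cs h p T n X) (C : Coords cs h (TL T) n (XL X) xx χ) {α : MulAut Y} {θ : (I → ℤ) ≃+ (I → ℤ)}
  (Fα : Fr cs h (TL T) (XL X) α θ)

include H C in
/-- representatives commuting with `t` preserve the characters at `t` -/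
theorem chi_eq {t : Y} (ht : t ∈ TL T) {w : W} {k : Y} (hk : Rp cs H.nsys w k) (hkt : k * t = t * k) {a : I → ℤ}
    (ha : IsRoot cs h a) : χ (rep cs h w a) t = χ a t := by
  have h1 := C.chi_rp H.nsys hk ha ht
  rwa [hkt, mul_inv_cancel_right] at h1

include H Fα in
/-- representatives fixed by `α` commute with `θ` on the roots -/
theorem rep_theta (hne : ∀ a, IsRoot cs h a → ∃ u ∈ XL X a, u ≠ 1)
    (hinj : ∀ a b, IsRoot cs h a → IsRoot cs h b → ∀ u ∈ XL X a, u ∈ XL X b → u ≠ 1 → a = b)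
    {w : W} {k : Y} (hk : Rp cs H.nsys w k) (hαk : α k = k) {a : I → ℤ} (ha : IsRoot cs h a) :
    rep cs h w (θ a) = θ (rep cs h w a) := by
  obtain ⟨u, hu, hu1⟩ := hne a ha
  have hcj : ∀ {b : I → ℤ}, IsRoot cs h b → ∀ {v : Y}, v ∈ XL X b → k * v * k⁻¹ ∈ XL X (rep cs h w b) := by
    intro b hb v hv
    have h2 : k * v * k⁻¹ ∈ cj k (XL X b) := conj_mem_cj.2 hv
    rwa [H.conj_rp hk hb] at h2
  have hθa : IsRoot cs h (θ a) := (Fα.root a).2 ha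
  have h1 : α u ∈ XL X (θ a) := (Fα.map a ha u).2 hu
  have h2 := hcj hθa h1
  have h3 : α (k * u * k⁻¹) ∈ XL X (θ (rep cs h w a)) := (Fα.map _ (ha.act w) _).2 (hcj ha hu)
  have e : α (k * u * k⁻¹) = k * α u * k⁻¹ := by rw [map_mul, map_mul, map_inv, hαk]
  rw [e] at h3
  refine hinj _ _ (hθa.act w) ((Fα.root _).2 (ha.act w)) _ h2 h3 fun h4 => hu1 ?_
  have h5 : α u = 1 := by
    have e2 : α u = k⁻¹ * (k * α u * k⁻¹) * k := by group
    rw [e2, h4]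
    group
  rwa [map_eq_one_iff α α.injective] at h5

variable {Q : ℕ} (hQ : 0 < Q)
  (hcard : ∀ Ψ : Set (I → ℤ), Ψ ⊆ RGD.Pos cs h → ZCl cs h Ψ → (∀ a ∈ Ψ, θ a ∈ Ψ) →
    Nat.card ↥(RGD.Sup (XL X) Ψ ⊓ fixedSubgroup α) = Q ^ Ψ.ncard)
  (hne : ∀ a, IsRoot cs h a → ∃ u ∈ XL X a, u ≠ 1)
  (hinj : ∀ a b, IsRoot cs h a → IsRoot cs h b → ∀ u ∈ XL X a, u ∈ XL X b → u ≠ 1 → a = b)
  (hA : ChAdd cs h (TL T) χ)

/-- the elements `v` of `Up`, fixed by `α`, with `k v k⁻¹ ∈ Un` -/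
def Vk (cs : CoxeterSystem M W) (h : IsCartan M A) (X : J → (I → ℤ) → Subgroup Y) (χ : (I → ℤ) → Y → F)
    (α : MulAut Y) (t k : Y) : Subgroup Y :=
  (Up cs h X χ t ⊓ fixedSubgroup α) ⊓ (Un cs h X χ t).comap (MulAut.conj k).toMonoidHom

theorem mem_Vk {t k v : Y} : v ∈ Vk cs h X χ α t k ↔
    (v ∈ Up cs h X χ t ∧ α v = v) ∧ k * v * k⁻¹ ∈ Un cs h X χ t := Iff.rfl

include H C Fα hQ hcard hne hinj in
/-- **The cell.** -/
theorem card_Vk {t : Y} (ht : t ∈ TL T) (hα : α t = t) (hpos : ∀ a ∈ Sx cs h χ t, 0 ≤ a → 0 ≤ θ a)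
    (hZ : ZCl cs h (SP cs h χ t)) {w : W} {k : Y} (hk : Rp cs H.nsys w k) (hkt : k * t = t * k) (hαk : α k = k) :
    Nat.card ↥(Vk cs h X χ α t k) ≤ Q ^ (NSt cs h χ t w).ncard := by
  have hθS : ∀ a ∈ SP cs h χ t, θ a ∈ SP cs h χ t := fun a ha =>
    ⟨(Fα.mem_Sx C ht hα a).2 ha.1, hpos a ha.1 ha.2⟩
  have hSP : SP cs h χ t ⊆ RGD.Pos cs h := fun a ha => ⟨ha.1.1, ha.2⟩
  have hwS : ∀ a ∈ Sx cs h χ t, rep cs h w a ∈ Sx cs h χ t := fun a ha =>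
    ⟨ha.1.act w, by rw [chi_eq H C ht hk hkt ha.1]; exact ha.2⟩
  have c1 : Nat.card ↥(Up cs h X χ t ⊓ fixedSubgroup α) = Q ^ (SP cs h χ t).ncard := hcard _ hSP hZ hθS
  have hPθ : ∀ a ∈ PSt cs h χ t w, θ a ∈ PSt cs h χ t w := by
    rintro a ⟨ha, h0, h1⟩
    obtain ⟨h2, h3⟩ := hθS a ⟨ha, h0⟩
    refine ⟨h2, h3, ?_⟩
    rw [rep_theta H Fα hne hinj hk hαk ha.1]
    exact hpos _ (hwS a ha) h1
  have hPZ : ZCl cs h (PSt cs h χ t w) := by
    rintro x ⟨hx, hx0, hx1⟩ y ⟨hy, hy0, hy1⟩ z hz ⟨i, j, hi, hj, e⟩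
    obtain ⟨h1, h2⟩ := hZ x ⟨hx, hx0⟩ y ⟨hy, hy0⟩ z hz ⟨i, j, hi, hj, e⟩
    refine ⟨h1, h2, ?_⟩
    rw [e, map_add, map_nsmul, map_nsmul]
    exact add_nonneg (nsmul_nonneg hx1 i) (nsmul_nonneg hy1 j)
  have c2 : Nat.card ↥(RGD.Sup (XL X) (PSt cs h χ t w) ⊓ fixedSubgroup α) = Q ^ (PSt cs h χ t w).ncard :=
    hcard _ (fun a ha => ⟨ha.1.1, ha.2.1⟩) hPZ hPθ
  have hfin : Finite ↥(Up cs h X χ t ⊓ fixedSubgroup α) := by
    refine Nat.finite_of_card_ne_zero ?_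
    rw [c1]
    exact (Nat.pow_pos hQ).ne'
  have hle : RGD.Sup (XL X) (PSt cs h χ t w) ≤ Up cs h X χ t :=
    RGD.Sup_mono (S := PSt cs h χ t w) (S' := SP cs h χ t) fun a ha => ⟨ha.1, ha.2.1⟩
  have key := card_mul_le (A := Vk cs h X χ α t k) (B := RGD.Sup (XL X) (PSt cs h χ t w) ⊓ fixedSubgroup α)
    (C := Up cs h X χ t ⊓ fixedSubgroup α) (fun v hv => hv.1) (fun v hv => ⟨hle hv.1, hv.2⟩) (by
      rw [eq_bot_iff]
      rintro v ⟨hv1, hv2⟩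
      have h1 : k * v * k⁻¹ ∈ RGD.Sup (XL X) (Neg cs h) := Un_le (mem_Vk.1 hv1).2
      have h2 : k * v * k⁻¹ ∈ RGD.Sup (XL X) (RGD.Pos cs h) :=
        conj_SupL H hk (S := PSt cs h χ t w) (S' := RGD.Pos cs h) (fun x hx => hx.1.1)
          (fun x hx => ⟨hx.1.1.act w, hx.2.2⟩) hv2.1
      have h3 := eq_one_of_pos_neg H h2 h1
      rw [Subgroup.mem_bot]
      have e2 : v = k⁻¹ * (k * v * k⁻¹) * k := by group
      rw [e2, h3]
      group)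
  rw [c1, c2, ← ncard_add t w, pow_add, mul_comm] at key
  exact Nat.le_of_mul_le_mul_left key (Nat.pow_pos hQ)

include H C Fα hQ hcard hne hinj hA in
/-- **The Bruhat count.** -/
theorem card_fixC_le (hG : GG cs h (TL T) (XL X) = ⊤)
    (hsep : ∀ a, IsRoot cs h a → ∃ s ∈ TL T, ∀ u ∈ XL X a, u * s = s * u → u = 1)
    {t : Y} (ht : t ∈ TL T) (hα : α t = t) (hpos : ∀ a ∈ Sx cs h χ t, 0 ≤ a → 0 ≤ θ a)
    (hZ : ZCl cs h (SP cs h χ t)) [hTf : Finite ↥(TL T ⊓ fixedSubgroup α)] (S : Finset W)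
    (hS : ∀ w, (∀ a, IsRoot cs h a → χ (rep cs h w a) t = χ a t) →
      (∀ a, IsRoot cs h a → rep cs h w (θ a) = θ (rep cs h w a)) →
      (∃ k, Rp cs H.nsys w k ∧ k * t = t * k ∧ α k = k) → w ∈ S) :
    Nat.card ↥(fixC α t) ≤ ∑ w ∈ S, Nat.card ↥(TL T ⊓ fixedSubgroup α) *
      Q ^ ((SP cs h χ t).ncard + (NSt cs h χ t w).ncard) := by
  classical
  have hθS : ∀ a ∈ SP cs h χ t, θ a ∈ SP cs h χ t := fun a ha =>
    ⟨(Fα.mem_Sx C ht hα a).2 ha.1, hpos a ha.1 ha.2⟩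
  have hSP : SP cs h χ t ⊆ RGD.Pos cs h := fun a ha => ⟨ha.1.1, ha.2⟩
  have c1 : Nat.card ↥(Up cs h X χ t ⊓ fixedSubgroup α) = Q ^ (SP cs h χ t).ncard := hcard _ hSP hZ hθS
  have hfin : Finite ↥(Up cs h X χ t ⊓ fixedSubgroup α) := by
    refine Nat.finite_of_card_ne_zero ?_
    rw [c1]
    exact (Nat.pow_pos hQ).ne'
  -- the cells
  let E : W → Set Y := fun w => {c | ∃ u ∈ Up cs h X χ t, α u = u ∧ ∃ k, Rp cs H.nsys w k ∧ k * t = t * k ∧ α k = k ∧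
    ∃ v ∈ Up cs h X χ t, α v = v ∧ k * v * k⁻¹ ∈ Un cs h X χ t ∧ c = u * k * v}
  have hE : ∀ w, (E w).Finite ∧ (E w).ncard ≤ Nat.card ↥(TL T ⊓ fixedSubgroup α) *
      Q ^ ((SP cs h χ t).ncard + (NSt cs h χ t w).ncard) := by
    intro w
    rcases Set.eq_empty_or_nonempty (E w) with h0 | ⟨c, u, hu, hαu, k, hk, hkt, hαk, v, hv, hαv, hkv, rfl⟩
    · rw [h0]
      exact ⟨Set.finite_empty, by rw [Set.ncard_empty]; exact Nat.zero_le _⟩
    have c3 := card_Vk H C Fα hQ hcard hne hinj ht hα hpos hZ hk hkt hαk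
    have hfV : Finite ↥(Vk cs h X χ α t k) :=
      Finite.of_injective (Subgroup.inclusion (fun v hv => hv.1 :
        Vk cs h X χ α t k ≤ Up cs h X χ t ⊓ fixedSubgroup α)) (Subgroup.inclusion_injective _)
    let f : ↥(Up cs h X χ t ⊓ fixedSubgroup α) × ↥(TL T ⊓ fixedSubgroup α) × ↥(Vk cs h X χ α t k) → Y :=
      fun x => x.1 * (x.2.1 * k) * x.2.2
    have hsub : E w ⊆ Set.range f := by
      rintro c ⟨u', hu', hαu', k', hk', hkt', hαk', v', hv', hαv', hkv', rfl⟩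
      have hs : k' * k⁻¹ ∈ TL T := by
        have h1 := (hk'.mul hk.inv)
        rw [mul_inv_cancel] at h1
        exact h1.mem_of_one
      have hαs : α (k' * k⁻¹) = k' * k⁻¹ := by rw [map_mul, map_inv, hαk, hαk']
      have hTn : k' * k⁻¹ ∈ Subgroup.normalizer (Un cs h X χ t : Set Y) :=
        H.T_le_normalizer (S := SN cs h χ t) (fun x hx => hx.1.1) hs
      have hv'' : k * v' * k⁻¹ ∈ Un cs h X χ t := by
        have h1 := (Subgroup.mem_normalizer_iff.1 (inv_mem hTn) _).1 hkv'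
        have e : (k' * k⁻¹)⁻¹ * (k' * v' * k'⁻¹) * (k' * k⁻¹)⁻¹⁻¹ = k * v' * k⁻¹ := by group
        rwa [e] at h1
      refine ⟨(⟨u', hu', hαu'⟩, ⟨k' * k⁻¹, hs, hαs⟩, ⟨v', mem_Vk.2 ⟨⟨hv', hαv'⟩, hv''⟩⟩), ?_⟩
      show u' * (k' * k⁻¹ * k) * v' = u' * k' * v'
      rw [inv_mul_cancel_right]
    have hrf : (Set.range f).Finite := Set.finite_range f
    refine ⟨hrf.subset hsub, (Set.ncard_le_ncard hsub hrf).trans ?_⟩
    rw [← Nat.card_coe_set_eq]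
    refine (Finite.card_range_le f).trans ?_
    rw [Nat.card_prod, Nat.card_prod, c1, pow_add]
    calc Q ^ (SP cs h χ t).ncard * (Nat.card ↥(TL T ⊓ fixedSubgroup α) * Nat.card ↥(Vk cs h X χ α t k))
        ≤ Q ^ (SP cs h χ t).ncard * (Nat.card ↥(TL T ⊓ fixedSubgroup α) * Q ^ (NSt cs h χ t w).ncard) :=
          Nat.mul_le_mul_left _ (Nat.mul_le_mul_left _ c3)
      _ = _ := by ring
  have hcov : ((fixC α t : Subgroup Y) : Set Y) ⊆ ⋃ w ∈ S, E w := by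
    intro c hc
    obtain ⟨hαc, hct⟩ := mem_fixC.1 hc
    obtain ⟨w, u, hu, hαu, k, hk, hkt, hαk, v, hv, hαv, hkv, e⟩ := form_fix H C Fα hG hsep hA ht hα hpos hct hαc
    have hw : w ∈ S := hS w (fun a ha => chi_eq H C ht hk hkt ha)
      (fun a ha => rep_theta H Fα hne hinj hk hαk ha) ⟨k, hk, hkt, hαk⟩
    exact Set.mem_biUnion hw ⟨u, hu, hαu, k, hk, hkt, hαk, v, hv, hαv, hkv, e⟩
  have hUf : (⋃ w ∈ S, E w).Finite := Set.Finite.biUnion S.finite_toSet fun w _ => (hE w).1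
  have h1 : Nat.card ↥(fixC α t) ≤ (⋃ w ∈ S, E w).ncard := Set.ncard_le_ncard hcov hUf
  refine h1.trans ((Finset.set_ncard_biUnion_le S E).trans (Finset.sum_le_sum fun w _ => (hE w).2))

end Abs

end Cfsg.Agent.H550.RG
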