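import Cfsg.Agent.H550.RG.Cnt

/-!
# S3509, F5: the order of the centraliser of a `p'`-element (helper550)

`W_f = WF cs h χ t θ` : the `w ∈ W` preserving the characters of the roots at `t` and commuting with `θ` on the roots,
`N` the number of positive roots of `Sx t`, `l_t(w)` the number of those made negative by `w ∈ W_f`,
`q = r ^ e`:
* `card_sum` : `|C_{Y^α}(t)| ≤ ∑_{w ∈ W_f} |T^α| q^(N + l_t(w))`;
* `card_le_WF` : `≤ |W_f| |T^α| q^(2N)`;
* `card_le_fam` : `≤ |T^α| q^N |PP| ∑_{B ∈ 𝓑} q^|B|`, `𝓑` any finite set of finite sets containing the sets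
  `{a ∈ Sx t, 0 ≤ a, w a ≤ 0}`, `w ∈ W_f`;
* `card_le_PP` : `≤ |T^α| q^N |PP| (1 + q)^N`;
* `card_le_bic` : the sum over the `θ`-invariant closed and coclosed sets `B` of positive roots of `Sx t`;
* `card_le_orb` : `≤ |T^α| q^N |PP| ∏_i (1 + q^|O_i|)`, `O_i` the orbits of `θ` on the positive roots of `Sx t`.
-/

set_option autoImplicit false
set_option linter.unusedSectionVars false

namespace Cfsg.Agent.H550.RG

open CoxeterSystem Cfsg Cfsg.Lie Cfsg.Lie.ChevalleyDatum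
open Cfsg.Agent.ChevalleyStructure Cfsg.Agent.ChevalleyStructure.Elts Cfsg.Agent.ChevalleyStructure.CoxeterGeom
  Cfsg.Agent.ChevalleyStructure.CoxeterGeomTypes Cfsg.Agent.ChevalleyStructure.NPerm
open Cfsg.Agent.Tits.Roots Cfsg.Agent.Tits.Core Cfsg.Agent.Nodes Cfsg.Agent.Nodes.Reps Cfsg.Agent.Nodes.BNOf
  Cfsg.Agent.Nodes.RGDChev Cfsg.Agent.Nodes.Bruhat Cfsg.Agent.Nodes.NormalForm
open Cfsg.Agent.KFacts.RgdField Cfsg.Agent.KFacts.RgdChevCoord
open Cfsg.Agent.BpExc Cfsg.Agent.BpExc.TorCent Cfsg.Agent.BpExc.TorChev Cfsg.Agent.BpExc.Tow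
  Cfsg.Agent.BpExc.TowChev Cfsg.Agent.BpExc.Fr Cfsg.Agent.BpExc.Pair Cfsg.Agent.BpExc.LangFr Cfsg.Agent.GpExc.Field
  Cfsg.Agent.BpExc.NInst
open Cfsg.Agent.H461.E2.Sup Cfsg.Agent.H28.RG Cfsg.Agent.H169.RG Cfsg.Agent.H316.U6 Cfsg.Agent.H469.Exc

universe u v

section Abs

variable {I W Y : Type*} [Fintype I] [DecidableEq I] [Group W] [Finite W] [Group Y] {M : CoxeterMatrix I}
  {cs : CoxeterSystem M W} {A : I → I → ℤ} {h : IsCartan M A} {F : Type*} [Field F] {χ : (I → ℤ) → Y → F}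
  {θ : (I → ℤ) ≃+ (I → ℤ)} {t : Y}

/-- `W_f` : the elements of `W` preserving the characters of the roots at `t` and commuting with `θ` on the roots -/
def WF (cs : CoxeterSystem M W) (h : IsCartan M A) (χ : (I → ℤ) → Y → F) (t : Y) (θ : (I → ℤ) ≃+ (I → ℤ)) :
    Subgroup W where
  carrier := {w | (∀ a, IsRoot cs h a → χ (rep cs h w a) t = χ a t) ∧
    ∀ a, IsRoot cs h a → rep cs h w (θ a) = θ (rep cs h w a)}
  one_mem' := by
    refine ⟨fun a _ => ?_, fun a _ => ?_⟩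
    · rw [map_one, Module.End.one_apply]
    · rw [map_one, Module.End.one_apply, Module.End.one_apply]
  mul_mem' := by
    rintro v w ⟨h1, h2⟩ ⟨h3, h4⟩
    refine ⟨fun a ha => ?_, fun a ha => ?_⟩
    · rw [rep_mul_apply, h1 _ (ha.act w), h3 a ha]
    · rw [rep_mul_apply, rep_mul_apply, h4 a ha, h2 _ (ha.act w)]
  inv_mem' := by
    rintro w ⟨h1, h2⟩
    refine ⟨fun a ha => ?_, fun a ha => ?_⟩
    · rw [← h1 _ (ha.act w⁻¹), rep_apply_inv]
    · have h3 := h2 _ (ha.act w⁻¹)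
      rw [rep_apply_inv] at h3
      rw [← h3, rep_inv_apply]

theorem mem_WF {w : W} : w ∈ WF cs h χ t θ ↔ (∀ a, IsRoot cs h a → χ (rep cs h w a) t = χ a t) ∧
    ∀ a, IsRoot cs h a → rep cs h w (θ a) = θ (rep cs h w a) := Iff.rfl

/-- `W_f` as a finite set -/
noncomputable def WFf (cs : CoxeterSystem M W) (h : IsCartan M A) (χ : (I → ℤ) → Y → F) (t : Y)
    (θ : (I → ℤ) ≃+ (I → ℤ)) : Finset W := (Set.toFinite (WF cs h χ t θ : Set W)).toFinset

theorem mem_WFf {w : W} : w ∈ WFf cs h χ t θ ↔ w ∈ WF cs h χ t θ := by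
  rw [WFf, Set.Finite.mem_toFinset, SetLike.mem_coe]

theorem card_WFf : (WFf cs h χ t θ).card = Nat.card ↥(WF cs h χ t θ) := by
  rw [WFf, ← Set.ncard_eq_toFinset_card, ← Nat.card_coe_set_eq]
  rfl

theorem rep_theta_all {w : W} (hw : w ∈ WF cs h χ t θ) (v : I → ℤ) : rep cs h w (θ v) = θ (rep cs h w v) := by
  have h3 : v = ∑ j, v j • sr j := by
    funext i
    simp [sr, Finset.sum_apply, Pi.single_apply]
  rw [h3, map_sum, map_sum, map_sum, map_sum]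
  refine Finset.sum_congr rfl fun j _ => ?_
  rw [map_zsmul, map_zsmul, map_zsmul, map_zsmul]
  congr 1
  exact hw.2 (sr j) (isRoot_sr cs h j)

theorem finite_SPt : (H28.RG.SP cs h χ t).Finite :=
  (RGD.finite_roots (cs := cs) (h := h)).subset fun _ ha => ha.1.1

theorem NSt_subset (w : W) : NSt cs h χ t w ⊆ H28.RG.SP cs h χ t := fun _ ha => ⟨ha.1, ha.2.1⟩

theorem finite_NSt (w : W) : (NSt cs h χ t w).Finite := finite_SPt.subset (NSt_subset w)

theorem ncard_NSt_le (w : W) : (NSt cs h χ t w).ncard ≤ (H28.RG.SP cs h χ t).ncard :=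
  Set.ncard_le_ncard (NSt_subset w) finite_SPt

/-- the inversion sets are `θ`-invariant -/
theorem theta_NSt (hneg : ∀ a ∈ Sx cs h χ t, -a ∈ Sx cs h χ t)
    (hS : ∀ a, θ a ∈ Sx cs h χ t ↔ a ∈ Sx cs h χ t) (hpos : ∀ a ∈ Sx cs h χ t, 0 ≤ a → 0 ≤ θ a)
    {w : W} (hw : w ∈ WF cs h χ t θ) {a : I → ℤ} (ha : a ∈ NSt cs h χ t w) : θ a ∈ NSt cs h χ t w := by
  obtain ⟨h1, h2, h3⟩ := ha
  refine ⟨(hS a).2 h1, hpos a h1 h2, ?_⟩
  have h5 : rep cs h w a ∈ Sx cs h χ t := ⟨h1.1.act w, by rw [hw.1 a h1.1]; exact h1.2⟩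
  have h6 := hpos _ (hneg _ h5) (neg_nonneg.2 h3)
  rw [hw.2 a h1.1]
  rwa [map_neg, neg_nonneg] at h6

/-- **Two elements of `W_f` with the same inversion set differ by an element of `PP`.** -/
theorem mem_PP_of_NSt (hneg : ∀ a ∈ Sx cs h χ t, -a ∈ Sx cs h χ t) {w w' : W} (hw : w ∈ WF cs h χ t θ)
    (hw' : w' ∈ WF cs h χ t θ) (e : NSt cs h χ t w = NSt cs h χ t w') : w' * w⁻¹ ∈ PP cs h χ t := by
  have hm := (WF cs h χ t θ).mul_mem hw' ((WF cs h χ t θ).inv_mem hw)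
  refine mem_PP.2 ⟨hm.1, fun a ha h0 => ?_⟩
  rw [rep_mul_apply]
  have hb : rep cs h w⁻¹ a ∈ Sx cs h χ t :=
    ⟨ha.1.act w⁻¹, by rw [((WF cs h χ t θ).inv_mem hw).1 a ha.1]; exact ha.2⟩
  have hwb : rep cs h w (rep cs h w⁻¹ a) = a := rep_apply_inv ..
  set b := rep cs h w⁻¹ a with hbdef
  rcases hb.1.pos_or_neg with h1 | h1
  · rcases (hb.1.act w').pos_or_neg with h2 | h2
    · exact h2
    · have h3 : b ∈ NSt cs h χ t w := by rw [e]; exact ⟨hb, h1, h2⟩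
      have h4 := h3.2.2
      rw [hwb] at h4
      exact (ha.1.not_pos_neg h0 h4).elim
  · have h3 : -b ∈ NSt cs h χ t w := ⟨hneg b hb, neg_nonneg.2 h1, by
      rw [map_neg, hwb]
      exact neg_nonpos.2 h0⟩
    rw [e] at h3
    have h4 := h3.2.2
    rw [map_neg] at h4
    exact neg_nonpos.1 h4

/-- **The sum over `W_f`** -/
theorem sum_WF_le (hneg : ∀ a ∈ Sx cs h χ t, -a ∈ Sx cs h χ t) (Q : ℕ) (𝓑 : Finset (Finset (I → ℤ)))
    (h𝓑 : ∀ w ∈ WF cs h χ t θ, (finite_NSt (cs := cs) (h := h) (χ := χ) (t := t) w).toFinset ∈ 𝓑) :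
    ∑ w ∈ WFf cs h χ t θ, Q ^ (NSt cs h χ t w).ncard ≤ Nat.card ↥(PP cs h χ t) * ∑ B ∈ 𝓑, Q ^ B.card := by
  classical
  rw [← Finset.sum_fiberwise_of_maps_to (s := WFf cs h χ t θ) (t := 𝓑)
    (g := fun w => (finite_NSt (cs := cs) (h := h) (χ := χ) (t := t) w).toFinset)
    (fun w hw => h𝓑 w (mem_WFf.1 hw)), Finset.mul_sum]
  refine Finset.sum_le_sum fun B _ => ?_
  rw [Finset.sum_congr rfl (g := fun _ => Q ^ B.card) (fun w hw => ?_), Finset.sum_const, smul_eq_mul]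
  · refine Nat.mul_le_mul_right _ ?_
    rcases Finset.eq_empty_or_nonempty ({w ∈ WFf cs h χ t θ |
      (finite_NSt (cs := cs) (h := h) (χ := χ) (t := t) w).toFinset = B}) with h0 | ⟨w₀, h0⟩
    · rw [h0, Finset.card_empty]
      exact Nat.zero_le _
    · obtain ⟨h1, h2⟩ := Finset.mem_filter.1 h0
      have hPPc : Nat.card ↥(PP cs h χ t) = (Set.toFinite (PP cs h χ t : Set W)).toFinset.card := by
        rw [← Set.ncard_eq_toFinset_card, ← Nat.card_coe_set_eq]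
        rfl
      rw [hPPc]
      refine Finset.card_le_card_of_injOn (fun w => w * w₀⁻¹) (fun w hw => ?_) (fun w _ w' _ e => mul_right_cancel e)
      obtain ⟨h3, h4⟩ := Finset.mem_filter.1 (Finset.mem_coe.1 hw)
      rw [Finset.mem_coe, Set.Finite.mem_toFinset]
      refine mem_PP_of_NSt hneg (mem_WFf.1 h1) (mem_WFf.1 h3) ?_
      have h5 := h2.trans h4.symm
      exact Set.Finite.toFinset_inj.1 h5
  · obtain ⟨h3, h4⟩ := Finset.mem_filter.1 hw
    rw [← h4, Set.ncard_eq_toFinset_card _ (finite_NSt w)]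

/-- all subsets -/
theorem sum_powerset_card {β : Type*} (s : Finset β) (Q : ℕ) : ∑ B ∈ s.powerset, Q ^ B.card = (1 + Q) ^ s.card := by
  classical
  have h1 := Finset.prod_one_add (f := fun _ => Q) s
  rw [Finset.prod_const] at h1
  rw [h1]
  refine Finset.sum_congr rfl fun B _ => ?_
  rw [Finset.prod_const]

/-- subsets which are unions of blocks -/
theorem sum_blocks_le {β ι : Type*} [DecidableEq β] (ι' : Finset ι) (O : ι → Finset β) (Q : ℕ) (𝓑 : Finset (Finset β))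
    (hdisj : ∀ i ∈ ι', ∀ j ∈ ι', i ≠ j → Disjoint (O i) (O j))
    (hB : ∀ B ∈ 𝓑, ∃ J ⊆ ι', B = J.biUnion O) :
    ∑ B ∈ 𝓑, Q ^ B.card ≤ ∏ i ∈ ι', (1 + Q ^ (O i).card) := by
  classical
  rw [Finset.prod_one_add]
  have h1 : 𝓑 ⊆ ι'.powerset.image (fun J => J.biUnion O) := by
    intro B hB'
    obtain ⟨J, hJ, e⟩ := hB B hB'
    exact Finset.mem_image.2 ⟨J, Finset.mem_powerset.2 hJ, e.symm⟩
  have h2 : ∀ J ∈ ι'.powerset, Q ^ (J.biUnion O).card = ∏ i ∈ J, Q ^ (O i).card := by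
    intro J hJ
    rw [Finset.prod_pow_eq_pow_sum, Finset.card_biUnion]
    intro i hi j hj hij
    exact hdisj i (Finset.mem_powerset.1 hJ hi) j (Finset.mem_powerset.1 hJ hj) hij
  calc ∑ B ∈ 𝓑, Q ^ B.card ≤ ∑ B ∈ ι'.powerset.image (fun J => J.biUnion O), Q ^ B.card :=
        Finset.sum_le_sum_of_subset h1
    _ ≤ ∑ J ∈ ι'.powerset, Q ^ (J.biUnion O).card := by
        refine Finset.sum_image_le_of_nonneg ?_
        intro _ _
        exact Nat.zero_le _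
    _ = _ := Finset.sum_congr rfl h2

/-- a `θ`-invariant subset of a finite union of parts of orbits is a union of blocks -/
theorem exists_blocks {ι : Type*} (ι' : Finset ι) (O : ι → Finset (I → ℤ))
    (hO : ∀ i ∈ ι', ∀ a ∈ O i, ∀ b ∈ O i, ∃ n : ℕ, b = (fun x => θ x)^[n] a)
    {B : Finset (I → ℤ)} (hB : ∀ a ∈ B, θ a ∈ B) (hcov : ∀ a ∈ B, ∃ i ∈ ι', a ∈ O i) :
    ∃ J ⊆ ι', B = J.biUnion O := by
  classical
  refine ⟨ι'.filter (fun i => ∃ a ∈ O i, a ∈ B), Finset.filter_subset _ _, ?_⟩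
  have hit : ∀ n, ∀ a ∈ B, (fun x => θ x)^[n] a ∈ B := by
    intro n
    induction n with
    | zero => exact fun a ha => ha
    | succ n ih => intro a ha; rw [Function.iterate_succ_apply']; exact hB _ (ih a ha)
  ext b
  constructor
  · intro hb
    obtain ⟨i, hi, hbi⟩ := hcov b hb
    exact Finset.mem_biUnion.2 ⟨i, Finset.mem_filter.2 ⟨hi, b, hbi, hb⟩, hbi⟩
  · intro hb
    obtain ⟨i, hi, hbi⟩ := Finset.mem_biUnion.1 hb
    obtain ⟨hi, a, hai, ha⟩ := Finset.mem_filter.1 hi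
    obtain ⟨n, e⟩ := hO i hi a hai b hbi
    rw [e]
    exact hit n a ha

end Abs

/-! ### `Y = D.group k` -/

section Dgroup

variable {D : ChevalleyDatum} {l : ℕ} {M : CoxeterMatrix (Fin l)} (hp : IsType D l M) {k : Type u} [Field k]
  {W : Type v} [Group W] (cs : CoxeterSystem M W) {r e : ℕ} [Fact r.Prime] [CharP k r]
  {α : MulAut ↥(D.group k)} {θ : (Fin l → ℤ) ≃+ (Fin l → ℤ)} {t : ↥(D.group k)}

include hp cs in
/-- the fixed points of `α` on the torus -/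
theorem finite_TTα [IsAlgClosed k] [Finite W] (he : 0 < e) (hα : IsFrob r e α)
    (F : Fr cs hp.isCartan (TT D k) (XX D l k) α θ) : Finite ↥(TT D k ⊓ fixedSubgroup α) :=
  (H448.TorB.card_fixT_le hp cs he hα F (H := TT D k ⊓ fixedSubgroup α) inf_le_left fun _ ht => ht.2).1

include hp cs in
theorem card_TTα_le [IsAlgClosed k] [Finite W] (he : 0 < e) (hα : IsFrob r e α)
    (F : Fr cs hp.isCartan (TT D k) (XX D l k) α θ) :
    Nat.card ↥(TT D k ⊓ fixedSubgroup α) ≤ (r ^ e + 1) ^ l :=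
  (H448.TorB.card_fixT_le hp cs he hα F (H := TT D k ⊓ fixedSubgroup α) inf_le_left fun _ ht => ht.2).2

include hp cs in
/-- the order of the torus part divides, and is at most, `|det (θ - q)|` -/
theorem card_TTα_le_det [IsAlgClosed k] [Finite W] (he : 0 < e) (hα : IsFrob r e α)
    (F : Fr cs hp.isCartan (TT D k) (XX D l k) α θ) :
    Nat.card ↥(TT D k ⊓ fixedSubgroup α) ≤ (LinearMap.det (H378.RegTw.endo θ -
      ((r ^ e : ℕ) : ℤ) • (1 : Module.End ℤ (Fin l → ℤ)))).natAbs :=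
  (H448.TorB.card_fix_le hp cs he hα F (A := ((TT D k ⊓ fixedSubgroup α : Subgroup ↥(D.group k)) :
    Set ↥(D.group k))) fun _ ht => ⟨ht.1, ht.2⟩).2.1

/-- **The Bruhat count, for `D.group k`.** -/
theorem card_sum [IsAlgClosed k] [Finite W] (hk : LocFin k) (he : 0 < e) (hα : IsFrob r e α)
    (F : Fr cs hp.isCartan (TT D k) (XX D l k) α θ) (ht : t ∈ TT D k) (hαt : α t = t)
    (hpos : ∀ a ∈ Sx cs hp.isCartan (ch hp) t, 0 ≤ a → 0 ≤ θ a) :
    Nat.card ↥(fixC α t) ≤ ∑ w ∈ WFf cs hp.isCartan (ch hp) t θ, Nat.card ↥(TT D k ⊓ fixedSubgroup α) *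
      (r ^ e) ^ ((H28.RG.SP cs hp.isCartan (ch hp) t).ncard + (NSt cs hp.isCartan (ch hp) t w).ncard) := by
  have hTL := TL_eq (k := k) hp hk
  have hXL := XL_eq (k := k) hp hk
  have H := tow (k := k) hp cs hk r
  have C := coordsL (k := k) hp cs hk r
  have hG := GG_eq_top (k := k) hp cs hk
  have hA := chAddL (k := k) hp cs hk r
  have F' : Fr cs hp.isCartan (TL (Tj hp (k := k))) (XL (Xj hp (k := k))) α θ := by rw [hTL, hXL]; exact F
  have C' : Coords cs hp.isCartan (TL (Tj hp (k := k))) (nc hp k) (XL (Xj hp (k := k))) (xc hp) (ch hp) := by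
    rw [hTL, hXL]; exact C
  have hsep : ∀ a, IsRoot cs hp.isCartan a → ∃ s ∈ TL (Tj hp (k := k)), ∀ u ∈ XL (Xj hp (k := k)) a,
      u * s = s * u → u = 1 := by
    rw [hTL, hXL]
    exact fun a ha => NChev.sep hp cs hk r ha
  have hfT : Finite ↥(TL (Tj hp (k := k)) ⊓ fixedSubgroup α) := by
    rw [hTL]
    exact finite_TTα hp cs he hα F
  have hQ : 0 < r ^ e := pow_pos (Fact.out : r.Prime).pos e
  have key := card_fixC_le H C' F' hQ (by
      rw [hXL]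
      exact fun Ψ hP hZ hθ => H461.E2.Fix.card_fix (hp := hp) (cs := cs) hk r he hα F hP hZ hθ) (by
      rw [hXL]
      exact fun a ha => H696.GmnToral.XX_ne hp cs ha) (by
      rw [hXL]
      exact fun a b ha hb u hu hu' hu1 => H696.GmnToral.XX_injective hp cs hk r ha hb hu1 hu hu') (by
      rw [hTL]
      exact hA) hG hsep (t := t) (by rw [hTL]; exact ht) hαt hpos (H461.E2.Cent.zcl_Sx (r := r) hp cs hk ht)
      (WFf cs hp.isCartan (ch hp) t θ) (fun w h1 h2 _ => mem_WFf.2 ⟨h1, h2⟩)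
  rwa [hTL] at key

/-- **(i)** `|C_{Y^α}(t)| ≤ |W_f| |T^α| q^(2N)` -/
theorem card_le_WF [IsAlgClosed k] [Finite W] (hk : LocFin k) (he : 0 < e) (hα : IsFrob r e α)
    (F : Fr cs hp.isCartan (TT D k) (XX D l k) α θ) (ht : t ∈ TT D k) (hαt : α t = t)
    (hpos : ∀ a ∈ Sx cs hp.isCartan (ch hp) t, 0 ≤ a → 0 ≤ θ a) :
    Nat.card ↥(fixC α t) ≤ Nat.card ↥(WF cs hp.isCartan (ch hp) t θ) * (Nat.card ↥(TT D k ⊓ fixedSubgroup α) *
      (r ^ e) ^ (2 * (H28.RG.SP cs hp.isCartan (ch hp) t).ncard)) := by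
  refine (card_sum hp cs hk he hα F ht hαt hpos).trans ?_
  rw [← card_WFf, ← smul_eq_mul, ← Finset.sum_const]
  refine Finset.sum_le_sum fun w _ => Nat.mul_le_mul_left _ ?_
  refine Nat.pow_le_pow_right (pow_pos (Fact.out : r.Prime).pos e) ?_
  have h1 := ncard_NSt_le (cs := cs) (h := hp.isCartan) (χ := ch hp) (t := t) w
  omega

/-- **Any family of possible inversion sets.** -/
theorem card_le_fam [IsAlgClosed k] [Finite W] (hk : LocFin k) (he : 0 < e) (hα : IsFrob r e α)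
    (F : Fr cs hp.isCartan (TT D k) (XX D l k) α θ) (ht : t ∈ TT D k) (hαt : α t = t)
    (hpos : ∀ a ∈ Sx cs hp.isCartan (ch hp) t, 0 ≤ a → 0 ≤ θ a) (𝓑 : Finset (Finset (Fin l → ℤ)))
    (h𝓑 : ∀ w ∈ WF cs hp.isCartan (ch hp) t θ,
      (finite_NSt (cs := cs) (h := hp.isCartan) (χ := ch hp) (t := t) w).toFinset ∈ 𝓑) :
    Nat.card ↥(fixC α t) ≤ Nat.card ↥(TT D k ⊓ fixedSubgroup α) *
      (r ^ e) ^ (H28.RG.SP cs hp.isCartan (ch hp) t).ncard *
      (Nat.card ↥(PP cs hp.isCartan (ch hp) t) * ∑ B ∈ 𝓑, (r ^ e) ^ B.card) := by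
  have hA := chAddL (k := k) hp cs hk r
  have C := coordsL (k := k) hp cs hk r
  refine (card_sum hp cs hk he hα F ht hαt hpos).trans ?_
  refine le_trans (le_of_eq ?_) (Nat.mul_le_mul_left _ (sum_WF_le (cs := cs) (h := hp.isCartan) (χ := ch hp) (t := t)
    (θ := θ) (fun a ha => chi_neg C ht hA ha) (r ^ e) 𝓑 h𝓑))
  rw [Finset.mul_sum]
  refine Finset.sum_congr rfl fun w _ => ?_
  rw [pow_add, mul_assoc]

/-- **(ii)** `|C_{Y^α}(t)| ≤ |T^α| q^N |PP| (1 + q)^N` -/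
theorem card_le_PP [IsAlgClosed k] [Finite W] (hk : LocFin k) (he : 0 < e) (hα : IsFrob r e α)
    (F : Fr cs hp.isCartan (TT D k) (XX D l k) α θ) (ht : t ∈ TT D k) (hαt : α t = t)
    (hpos : ∀ a ∈ Sx cs hp.isCartan (ch hp) t, 0 ≤ a → 0 ≤ θ a) :
    Nat.card ↥(fixC α t) ≤ Nat.card ↥(TT D k ⊓ fixedSubgroup α) *
      (r ^ e) ^ (H28.RG.SP cs hp.isCartan (ch hp) t).ncard *
      (Nat.card ↥(PP cs hp.isCartan (ch hp) t) *
        (1 + r ^ e) ^ (H28.RG.SP cs hp.isCartan (ch hp) t).ncard) := by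
  refine (card_le_fam hp cs hk he hα F ht hαt hpos
    (finite_SPt (cs := cs) (h := hp.isCartan) (χ := ch hp) (t := t)).toFinset.powerset (fun w _ => ?_)).trans ?_
  · rw [Finset.mem_powerset, Set.Finite.toFinset_subset_toFinset]
    exact NSt_subset w
  · rw [sum_powerset_card, ← Set.ncard_eq_toFinset_card _ finite_SPt]

/-- `|C_{Y^α}(t)| ≤ |PP| (q + 1)^(l + N) q^N` -/
theorem card_le_PP' [IsAlgClosed k] [Finite W] (hk : LocFin k) (he : 0 < e) (hα : IsFrob r e α)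
    (F : Fr cs hp.isCartan (TT D k) (XX D l k) α θ) (ht : t ∈ TT D k) (hαt : α t = t)
    (hpos : ∀ a ∈ Sx cs hp.isCartan (ch hp) t, 0 ≤ a → 0 ≤ θ a) :
    Nat.card ↥(fixC α t) ≤ Nat.card ↥(PP cs hp.isCartan (ch hp) t) *
      ((r ^ e + 1) ^ (l + (H28.RG.SP cs hp.isCartan (ch hp) t).ncard) *
        (r ^ e) ^ (H28.RG.SP cs hp.isCartan (ch hp) t).ncard) := by
  refine (card_le_PP hp cs hk he hα F ht hαt hpos).trans ?_
  calc _ ≤ (r ^ e + 1) ^ l * (r ^ e) ^ (H28.RG.SP cs hp.isCartan (ch hp) t).ncard *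
      (Nat.card ↥(PP cs hp.isCartan (ch hp) t) * (1 + r ^ e) ^ (H28.RG.SP cs hp.isCartan (ch hp) t).ncard) :=
        Nat.mul_le_mul_right _ (Nat.mul_le_mul_right _ (card_TTα_le hp cs he hα F))
    _ = _ := by
        rw [pow_add, add_comm 1 (r ^ e)]
        ring

/-- **(iii)** `|C_{Y^α}(t)| ≤ |T^α| q^N |PP| ∏_i (1 + q^|O_i|)`, where the disjoint sets `O_i`, parts of orbits of `θ`,
cover the positive roots of `Sx t` -/
theorem card_le_orb [IsAlgClosed k] [Finite W] (hk : LocFin k) (he : 0 < e) (hα : IsFrob r e α)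
    (F : Fr cs hp.isCartan (TT D k) (XX D l k) α θ) (ht : t ∈ TT D k) (hαt : α t = t)
    (hpos : ∀ a ∈ Sx cs hp.isCartan (ch hp) t, 0 ≤ a → 0 ≤ θ a) {ι : Type*} (ι' : Finset ι)
    (O : ι → Finset (Fin l → ℤ)) (hdisj : ∀ i ∈ ι', ∀ j ∈ ι', i ≠ j → Disjoint (O i) (O j))
    (hO : ∀ i ∈ ι', ∀ a ∈ O i, ∀ b ∈ O i, ∃ n : ℕ, b = (fun x => θ x)^[n] a)
    (hcov : ∀ a ∈ Sx cs hp.isCartan (ch hp) t, 0 ≤ a → ∃ i ∈ ι', a ∈ O i) :
    Nat.card ↥(fixC α t) ≤ Nat.card ↥(TT D k ⊓ fixedSubgroup α) *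
      (r ^ e) ^ (H28.RG.SP cs hp.isCartan (ch hp) t).ncard *
      (Nat.card ↥(PP cs hp.isCartan (ch hp) t) * ∏ i ∈ ι', (1 + (r ^ e) ^ (O i).card)) := by
  classical
  have hTL := TL_eq (k := k) hp hk
  have hXL := XL_eq (k := k) hp hk
  have hA := chAddL (k := k) hp cs hk r
  have C := coordsL (k := k) hp cs hk r
  have F' : Fr cs hp.isCartan (TL (Tj hp (k := k))) (XL (Xj hp (k := k))) α θ := by rw [hTL, hXL]; exact F
  have C' : Coords cs hp.isCartan (TL (Tj hp (k := k))) (nc hp k) (XL (Xj hp (k := k))) (xc hp) (ch hp) := by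
    rw [hTL, hXL]; exact C
  have hS : ∀ a, θ a ∈ Sx cs hp.isCartan (ch hp) t ↔ a ∈ Sx cs hp.isCartan (ch hp) t :=
    fun a => F'.mem_Sx C' (by rw [hTL]; exact ht) hαt a
  set P := (finite_SPt (cs := cs) (h := hp.isCartan) (χ := ch hp) (t := t)).toFinset with hP
  refine (card_le_fam hp cs hk he hα F ht hαt hpos (P.powerset.filter fun B => ∀ a ∈ B, θ a ∈ B)
    (fun w hw => ?_)).trans (Nat.mul_le_mul_left _ (Nat.mul_le_mul_left _ (sum_blocks_le ι' O (r ^ e) _ hdisj ?_)))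
  · refine Finset.mem_filter.2 ⟨?_, fun a ha => ?_⟩
    · rw [Finset.mem_powerset, hP, Set.Finite.toFinset_subset_toFinset]
      exact NSt_subset w
    · rw [Set.Finite.mem_toFinset] at ha ⊢
      exact theta_NSt (fun a ha => chi_neg C ht hA ha) hS hpos hw ha
  · intro B hB
    obtain ⟨h1, h2⟩ := Finset.mem_filter.1 hB
    refine exists_blocks (θ := θ) ι' O hO h2 fun a ha => ?_
    have h3 := Finset.mem_powerset.1 h1 ha
    rw [hP, Set.Finite.mem_toFinset] at h3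
    exact hcov a h3.1 h3.2

/-- **(iv)** the inversion sets are `θ`-invariant, closed and coclosed: `𝓑` any family containing all such sets -/
theorem card_le_bic [IsAlgClosed k] [Finite W] (hk : LocFin k) (he : 0 < e) (hα : IsFrob r e α)
    (F : Fr cs hp.isCartan (TT D k) (XX D l k) α θ) (ht : t ∈ TT D k) (hαt : α t = t)
    (hpos : ∀ a ∈ Sx cs hp.isCartan (ch hp) t, 0 ≤ a → 0 ≤ θ a) (𝓑 : Finset (Finset (Fin l → ℤ)))
    (h𝓑 : ∀ B : Finset (Fin l → ℤ), (∀ a ∈ B, a ∈ Sx cs hp.isCartan (ch hp) t ∧ 0 ≤ a) → (∀ a ∈ B, θ a ∈ B) →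
      (∀ a ∈ B, ∀ b ∈ B, IsRoot cs hp.isCartan (a + b) → a + b ∈ B) →
      (∀ a ∈ Sx cs hp.isCartan (ch hp) t, 0 ≤ a → ∀ b ∈ Sx cs hp.isCartan (ch hp) t, 0 ≤ b → a + b ∈ B →
        a ∈ B ∨ b ∈ B) → B ∈ 𝓑) :
    Nat.card ↥(fixC α t) ≤ Nat.card ↥(TT D k ⊓ fixedSubgroup α) *
      (r ^ e) ^ (H28.RG.SP cs hp.isCartan (ch hp) t).ncard *
      (Nat.card ↥(PP cs hp.isCartan (ch hp) t) * ∑ B ∈ 𝓑, (r ^ e) ^ B.card) := by
  have hTL := TL_eq (k := k) hp hk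
  have hXL := XL_eq (k := k) hp hk
  have hA := chAddL (k := k) hp cs hk r
  have C := coordsL (k := k) hp cs hk r
  have F' : Fr cs hp.isCartan (TL (Tj hp (k := k))) (XL (Xj hp (k := k))) α θ := by rw [hTL, hXL]; exact F
  have C' : Coords cs hp.isCartan (TL (Tj hp (k := k))) (nc hp k) (XL (Xj hp (k := k))) (xc hp) (ch hp) := by
    rw [hTL, hXL]; exact C
  have hS : ∀ a, θ a ∈ Sx cs hp.isCartan (ch hp) t ↔ a ∈ Sx cs hp.isCartan (ch hp) t :=
    fun a => F'.mem_Sx C' (by rw [hTL]; exact ht) hαt a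
  refine card_le_fam hp cs hk he hα F ht hαt hpos 𝓑 fun w hw => h𝓑 _ (fun a ha => ?_) (fun a ha => ?_)
    (fun a ha b hb hab => ?_) (fun a ha ha0 b hb hb0 hab => ?_)
  · rw [Set.Finite.mem_toFinset] at ha
    exact ⟨ha.1, ha.2.1⟩
  · rw [Set.Finite.mem_toFinset] at ha ⊢
    exact theta_NSt (fun a ha => chi_neg C ht hA ha) hS hpos hw ha
  · rw [Set.Finite.mem_toFinset] at ha hb ⊢
    refine ⟨⟨hab, ?_⟩, add_nonneg ha.2.1 hb.2.1, ?_⟩
    · obtain ⟨φ, h0, hadd, hφ⟩ := hA t ht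
      rw [hφ _ hab, hadd, ← hφ a ha.1.1, ← hφ b hb.1.1, ha.1.2, hb.1.2, one_mul]
    · rw [map_add]
      exact add_nonpos ha.2.2 hb.2.2
  · rw [Set.Finite.mem_toFinset] at hab
    rcases (ha.1.act w).pos_or_neg with h1 | h1
    · rcases (hb.1.act w).pos_or_neg with h2 | h2
      · exfalso
        refine (hab.1.1.act w).not_pos_neg ?_ hab.2.2
        rw [map_add]
        exact add_nonneg h1 h2
      · right
        rw [Set.Finite.mem_toFinset]
        exact ⟨hb, hb0, h2⟩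
    · left
      rw [Set.Finite.mem_toFinset]
      exact ⟨ha, ha0, h1⟩

end Dgroup

/-! ### the toral form: `s ∈ Y^σ` of order prime to `r`, `f : TorForm m s` -/

section Tor

variable {D : ChevalleyDatum} {l : ℕ} {M : CoxeterMatrix (Fin l)} {hp : IsType D l M} {r q : ℕ} [hr : Fact r.Prime]
  {K₀ : Type v} [Group K₀] {m : MData hp r q K₀} {s : ↥(D.group (KK r))}

/-- `|C_{Y^σ}(s)| = |C_{Y^α}(t)|` -/
theorem card_eq (f : TorForm m s) : Nat.card ↥(fixC m.σ s) = Nat.card ↥(fixC f.α f.t) :=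
  Nat.card_congr f.equiv.toEquiv

theorem tor_sum [Finite M.Group] (f : TorForm m s) :
    Nat.card ↥(fixC m.σ s) ≤ ∑ w ∈ WFf M.toCoxeterSystem hp.isCartan (ch hp) f.t f.θ,
      Nat.card ↥(TT D (KK r) ⊓ fixedSubgroup f.α) *
      q ^ ((H28.RG.SP M.toCoxeterSystem hp.isCartan (ch hp) f.t).ncard +
        (NSt M.toCoxeterSystem hp.isCartan (ch hp) f.t w).ncard) := by
  have key := card_sum hp M.toCoxeterSystem (locFin r) m.he f.frob f.fr f.mem f.fix f.pos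
  rw [m.hq] at key
  exact (card_eq f).trans_le key

theorem tor_le_WF [Finite M.Group] (f : TorForm m s) :
    Nat.card ↥(fixC m.σ s) ≤ Nat.card ↥(WF M.toCoxeterSystem hp.isCartan (ch hp) f.t f.θ) *
      (Nat.card ↥(TT D (KK r) ⊓ fixedSubgroup f.α) *
        q ^ (2 * (H28.RG.SP M.toCoxeterSystem hp.isCartan (ch hp) f.t).ncard)) := by
  have key := card_le_WF hp M.toCoxeterSystem (locFin r) m.he f.frob f.fr f.mem f.fix f.pos
  rw [m.hq] at key
  exact (card_eq f).trans_le key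

theorem tor_le_fam [Finite M.Group] (f : TorForm m s) (𝓑 : Finset (Finset (Fin l → ℤ)))
    (h𝓑 : ∀ w ∈ WF M.toCoxeterSystem hp.isCartan (ch hp) f.t f.θ,
      (finite_NSt (cs := M.toCoxeterSystem) (h := hp.isCartan) (χ := ch hp) (t := f.t) w).toFinset ∈ 𝓑) :
    Nat.card ↥(fixC m.σ s) ≤ Nat.card ↥(TT D (KK r) ⊓ fixedSubgroup f.α) *
      q ^ (H28.RG.SP M.toCoxeterSystem hp.isCartan (ch hp) f.t).ncard *
      (Nat.card ↥(PP M.toCoxeterSystem hp.isCartan (ch hp) f.t) * ∑ B ∈ 𝓑, q ^ B.card) := by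
  have key := card_le_fam hp M.toCoxeterSystem (locFin r) m.he f.frob f.fr f.mem f.fix f.pos 𝓑 h𝓑
  rw [m.hq] at key
  exact (card_eq f).trans_le key

theorem tor_le_PP [Finite M.Group] (f : TorForm m s) :
    Nat.card ↥(fixC m.σ s) ≤ Nat.card ↥(TT D (KK r) ⊓ fixedSubgroup f.α) *
      q ^ (H28.RG.SP M.toCoxeterSystem hp.isCartan (ch hp) f.t).ncard *
      (Nat.card ↥(PP M.toCoxeterSystem hp.isCartan (ch hp) f.t) *
        (1 + q) ^ (H28.RG.SP M.toCoxeterSystem hp.isCartan (ch hp) f.t).ncard) := by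
  have key := card_le_PP hp M.toCoxeterSystem (locFin r) m.he f.frob f.fr f.mem f.fix f.pos
  rw [m.hq] at key
  exact (card_eq f).trans_le key

theorem tor_le_PP' [Finite M.Group] (f : TorForm m s) :
    Nat.card ↥(fixC m.σ s) ≤ Nat.card ↥(PP M.toCoxeterSystem hp.isCartan (ch hp) f.t) *
      ((q + 1) ^ (l + (H28.RG.SP M.toCoxeterSystem hp.isCartan (ch hp) f.t).ncard) *
        q ^ (H28.RG.SP M.toCoxeterSystem hp.isCartan (ch hp) f.t).ncard) := by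
  have key := card_le_PP' hp M.toCoxeterSystem (locFin r) m.he f.frob f.fr f.mem f.fix f.pos
  rw [m.hq] at key
  exact (card_eq f).trans_le key

theorem tor_le_orb [Finite M.Group] (f : TorForm m s) {ι : Type*} (ι' : Finset ι)
    (O : ι → Finset (Fin l → ℤ)) (hdisj : ∀ i ∈ ι', ∀ j ∈ ι', i ≠ j → Disjoint (O i) (O j))
    (hO : ∀ i ∈ ι', ∀ a ∈ O i, ∀ b ∈ O i, ∃ n : ℕ, b = (fun x => f.θ x)^[n] a)
    (hcov : ∀ a ∈ Sx M.toCoxeterSystem hp.isCartan (ch hp) f.t, 0 ≤ a → ∃ i ∈ ι', a ∈ O i) :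
    Nat.card ↥(fixC m.σ s) ≤ Nat.card ↥(TT D (KK r) ⊓ fixedSubgroup f.α) *
      q ^ (H28.RG.SP M.toCoxeterSystem hp.isCartan (ch hp) f.t).ncard *
      (Nat.card ↥(PP M.toCoxeterSystem hp.isCartan (ch hp) f.t) * ∏ i ∈ ι', (1 + q ^ (O i).card)) := by
  have key := card_le_orb hp M.toCoxeterSystem (locFin r) m.he f.frob f.fr f.mem f.fix f.pos ι' O hdisj hO hcov
  rw [m.hq] at key
  exact (card_eq f).trans_le key

theorem tor_le_bic [Finite M.Group] (f : TorForm m s) (𝓑 : Finset (Finset (Fin l → ℤ)))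
    (h𝓑 : ∀ B : Finset (Fin l → ℤ),
      (∀ a ∈ B, a ∈ Sx M.toCoxeterSystem hp.isCartan (ch hp) f.t ∧ 0 ≤ a) → (∀ a ∈ B, f.θ a ∈ B) →
      (∀ a ∈ B, ∀ b ∈ B, IsRoot M.toCoxeterSystem hp.isCartan (a + b) → a + b ∈ B) →
      (∀ a ∈ Sx M.toCoxeterSystem hp.isCartan (ch hp) f.t, 0 ≤ a →
        ∀ b ∈ Sx M.toCoxeterSystem hp.isCartan (ch hp) f.t, 0 ≤ b → a + b ∈ B → a ∈ B ∨ b ∈ B) → B ∈ 𝓑) :
    Nat.card ↥(fixC m.σ s) ≤ Nat.card ↥(TT D (KK r) ⊓ fixedSubgroup f.α) *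
      q ^ (H28.RG.SP M.toCoxeterSystem hp.isCartan (ch hp) f.t).ncard *
      (Nat.card ↥(PP M.toCoxeterSystem hp.isCartan (ch hp) f.t) * ∑ B ∈ 𝓑, q ^ B.card) := by
  have key := card_le_bic hp M.toCoxeterSystem (locFin r) m.he f.frob f.fr f.mem f.fix f.pos 𝓑 h𝓑
  rw [m.hq] at key
  exact (card_eq f).trans_le key

theorem tor_TT [Finite M.Group] (f : TorForm m s) : Nat.card ↥(TT D (KK r) ⊓ fixedSubgroup f.α) ≤ (q + 1) ^ l := by
  have key := card_TTα_le hp M.toCoxeterSystem m.he f.frob f.fr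
  rwa [m.hq] at key

/-- the number of roots of `Sx t` is `2 N` -/
theorem tor_ncard (f : TorForm m s) : (Sx M.toCoxeterSystem hp.isCartan (ch hp) f.t).ncard =
    2 * (H28.RG.SP M.toCoxeterSystem hp.isCartan (ch hp) f.t).ncard :=
  H461.E2.Cent.ncard_Sx hp M.toCoxeterSystem (r := r) (locFin r) f.mem

/-- the centraliser of an element of `K₀` -/
theorem card_cent_le (m : MData hp r q K₀) (x : K₀) :
    Nat.card ↥(Subgroup.centralizer {x}) ≤ Nat.card ↥(fixC m.σ (m.ι x)) := by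
  have := m.fin
  have h1 : Finite ↥(fixC m.σ (m.ι x)) :=
    Finite.of_injective (fun y : ↥(fixC m.σ (m.ι x)) => (⟨y.1, (mem_fixC.1 y.2).1⟩ : ↥(fixedSubgroup m.σ)))
      fun a b e => Subtype.ext (congrArg (fun y : ↥(fixedSubgroup m.σ) => (y : ↥(D.group (KK r)))) e)
  refine Nat.card_le_card_of_injective (fun y : ↥(Subgroup.centralizer {x}) =>
    (⟨m.ι y, mem_fixC.2 ⟨m.fix _, by rw [← map_mul, ← map_mul, Subgroup.mem_centralizer_singleton_iff.1 y.2]⟩⟩ :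
      ↥(fixC m.σ (m.ι x)))) fun a b e => Subtype.ext (m.inj (congrArg Subtype.val e))

end Tor

end Cfsg.Agent.H550.RG
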